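import Cfsg.Agent.H115.HC.RgdCusp
import Cfsg.Agent.H622.Levi.Chain
import Cfsg.Agent.Nodes.Block
import Cfsg.Agent.Nodes.Unique
import Cfsg.Agent.OddOrderCharacters.PF13Fix

/-!
# Cuspidal characters of the rank one subgroups over a central character (S4816)

`R` a root group datum of a finite group `Y`, `i` a node, `M_i = ⟨X_i, X_{-i}⟩`.

* `comm_neg` : an element of `T` centralising `X_i` centralises `X_{-i}`;
* `comm_of_cyclic` : if `T ∩ M_i` acts on `X_i` through a cyclic group, then `T ∩ M_i` is commutative;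
-/

set_option autoImplicit false
set_option linter.unusedSectionVars false

open scoped ComplexConjugate
open Cfsg

namespace Cfsg.Agent.H568.RIM

open CoxeterSystem Cfsg.Agent.ChevalleyStructure.CoxeterGeom Cfsg.Agent.Tits.Roots Cfsg.Agent.Tits.Core
  Cfsg.Agent.Tits.Exchange Cfsg.Agent.Nodes.Reps Cfsg.Agent.Nodes.BNOf Cfsg.Agent.Nodes.StabComb
  Cfsg.Agent.Nodes.Bruhat Cfsg.Agent.Nodes.OppDec Cfsg.Agent.Nodes.LeviDec Cfsg.Agent.H53.HC
  Cfsg.Agent.Characters

variable {I W Y : Type*} [Fintype I] [DecidableEq I] [Group W] [Group Y] {M : CoxeterMatrix I}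
  {cs : CoxeterSystem M W} {A : I → I → ℤ} {h : IsCartan M A} {p : ℕ} {T : Subgroup Y} {n : I → Y}
  {X : (I → ℤ) → Subgroup Y}

/-- the roots of `{i}` -/
theorem rootsJ_single (i : I) : RootsJ cs h ({i} : Set I) = {sr i, -sr i} := by
  ext x
  constructor
  · rintro ⟨hx, h0⟩
    rcases hx.pos_or_neg with h1 | h1
    · have h2 : x ∈ PosJ cs h ({i} : Set I) := ⟨hx, h1, h0⟩
      rw [H115.HC.PosJ_single] at h2
      exact Or.inl h2
    · have h2 : -x ∈ PosJ cs h ({i} : Set I) := ⟨hx.neg, neg_nonneg.2 h1, fun k hk => by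
        rw [Pi.neg_apply, h0 k hk, neg_zero]⟩
      rw [H115.HC.PosJ_single] at h2
      right
      show x = -sr i
      rw [← Set.mem_singleton_iff.1 h2, neg_neg]
  · rintro (rfl | rfl)
    · exact PosJ_subset _ (sr_mem_PosJ (Set.mem_singleton i))
    · refine ⟨(isRoot_sr cs h i).neg, fun k hk => ?_⟩
      rw [Pi.neg_apply, sr_ne (fun e => hk (by rw [e]; rfl)), neg_zero]

/-- `M_i = ⟨X_i, X_{-i}⟩` -/
theorem MJ_single (i : I) : MJ cs h X ({i} : Set I) = X (sr i) ⊔ X (-sr i) := by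
  unfold MJ
  rw [rootsJ_single]
  apply le_antisymm
  · refine RGD.Sup_le fun x hx => ?_
    rcases hx with rfl | rfl
    · exact le_sup_left
    · exact le_sup_right
  · exact sup_le (RGD.le_Sup (Or.inl rfl)) (RGD.le_Sup (Or.inr rfl))

theorem rad_single (i : I) : rad cs h X ({i} : Set I) i = X (sr i) := by
  unfold rad
  apply le_antisymm
  · refine RGD.Sup_le fun x hx => ?_
    have h1 : x ∈ PosJ cs h ({i} : Set I) := hx.1
    rw [H115.HC.PosJ_single] at h1
    rw [Set.mem_singleton_iff.1 h1]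
  · refine RGD.le_Sup ⟨sr_mem_PosJ (Set.mem_singleton i), ?_⟩
    rw [sr_self]
    exact zero_lt_one

section

variable [Finite W] (R : RGD cs h p T n X)

include R

/-- an element of `T` centralising `X_i` centralises `X_{-i}` -/
theorem comm_neg {i : I} {t : Y} (ht : t ∈ T) (hc : ∀ x ∈ X (sr i), t * x = x * t) {u : Y} (hu : u ∈ X (-sr i)) :
    t * u = u * t := by
  by_cases hu1 : u = 1
  · rw [hu1, mul_one, one_mul]
  obtain ⟨a, ha, s, hs, b, hb, e⟩ := R.rk1 i u hu hu1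
  have h1 : t * u * t⁻¹ ∈ X (-sr i) := by
    have := conj_mem_cj (g := t) |>.2 hu
    rwa [R.tor _ (isRoot_sr cs h i).neg t ht] at this
  have h2 : u⁻¹ * (t * u * t⁻¹) = b⁻¹ * ((n i)⁻¹ * (s⁻¹ * t * s) * n i * t⁻¹) * b := by
    have e1 := hc a ha
    have e2 := hc b hb
    have e3 : b * t⁻¹ = t⁻¹ * b := by
      have : t⁻¹ * (t * b) * t⁻¹ = t⁻¹ * (b * t) * t⁻¹ := by rw [e2]
      rw [inv_mul_cancel_left] at this
      rw [this]; group
    calc u⁻¹ * (t * u * t⁻¹) = b⁻¹ * (n i)⁻¹ * s⁻¹ * a⁻¹ * ((t * a) * s * n i * (b * t⁻¹)) := by rw [e]; group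
      _ = b⁻¹ * (n i)⁻¹ * s⁻¹ * a⁻¹ * ((a * t) * s * n i * (t⁻¹ * b)) := by rw [e1, e3]
      _ = _ := by group
  have h3 : u⁻¹ * (t * u * t⁻¹) ∈ RGD.B cs h T X := by
    rw [h2]
    have h4 : (n i)⁻¹ * (s⁻¹ * t * s) * n i ∈ T := by
      have h5 : (n i)⁻¹ * (s⁻¹ * t * s) * (n i)⁻¹⁻¹ ∈ T :=
        (Subgroup.mem_normalizer_iff.1 (inv_mem (rp_simple cs R.nsys i).mem_normalizer) _).1
          (T.mul_mem (T.mul_mem (T.inv_mem hs) ht) hs)
      rwa [inv_inv] at h5
    have h5 : b ∈ RGD.B cs h T X := RGD.X_le_B (isRoot_sr cs h i) (sr_nonneg i) hb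
    have h6 : (n i)⁻¹ * (s⁻¹ * t * s) * n i * t⁻¹ ∈ RGD.B cs h T X := RGD.T_le_B (T.mul_mem h4 (T.inv_mem ht))
    exact (RGD.B cs h T X).mul_mem ((RGD.B cs h T X).mul_mem ((RGD.B cs h T X).inv_mem h5) h6) h5
  have h4 : u⁻¹ * (t * u * t⁻¹) ∈ X (-sr i) ⊓ RGD.B cs h T X :=
    Subgroup.mem_inf.2 ⟨(X (-sr i)).mul_mem ((X (-sr i)).inv_mem hu) h1, h3⟩
  rw [Cfsg.Agent.Nodes.Unique.neg_inf_B R i, Subgroup.mem_bot] at h4
  have h5 : t * u * t⁻¹ = u := (inv_mul_eq_one.1 h4).symm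
  calc t * u = t * u * t⁻¹ * t := by group
    _ = u * t := by rw [h5]

/-- **`T ∩ M_i` is commutative** if it acts on `X_i` through a cyclic group. -/
theorem comm_of_cyclic {i : I} {C : Type*} [Group C] [IsCyclic C] (c : ↥(T ⊓ MJ cs h X ({i} : Set I)) →* C)
    (hc : ∀ t, c t = 1 → ∀ x ∈ X (sr i), (t : Y) * x = x * t) :
    ∀ a ∈ T ⊓ MJ cs h X ({i} : Set I), ∀ b ∈ T ⊓ MJ cs h X ({i} : Set I), a * b = b * a := by
  intro a ha b hb
  have h1 : c.ker ≤ Subgroup.center ↥(T ⊓ MJ cs h X ({i} : Set I)) := by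
    intro t ht
    rw [Subgroup.mem_center_iff]
    intro g
    have h2 := hc t ht
    have h3 : MJ cs h X ({i} : Set I) ≤ Subgroup.centralizer {(t : Y)} := by
      refine (MJ_single (cs := cs) (h := h) (X := X) i).le.trans ?_
      refine sup_le (fun x hx => ?_) (fun x hx => ?_)
      · rw [Subgroup.mem_centralizer_singleton_iff]
        exact (h2 x hx).symm
      · rw [Subgroup.mem_centralizer_singleton_iff]
        exact (comm_neg R t.2.1 h2 hx).symm
    apply Subtype.ext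
    exact Subgroup.mem_centralizer_singleton_iff.1 (h3 g.2.2)
  exact congrArg Subtype.val ((c.isMulCommutative_of_isCyclic_of_ker_le_center h1).is_comm.comm ⟨a, ha⟩ ⟨b, hb⟩)

end

end Cfsg.Agent.H568.RIM
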