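import Cfsg.Agent.H965.XZ.IdxB
import Cfsg.Agent.H812.RIM.FlipB
import Cfsg.Agent.H53.HC.Asm

/-!
# The nodes of `B_{l+2}` without the last but one: `A_l` and the last node (S4816)
-/

set_option autoImplicit false
set_option linter.unusedSectionVars false

namespace Cfsg.Agent.H568.RIM

open CoxeterSystem Cfsg.Agent.ChevalleyStructure.CoxeterGeom Cfsg.Agent.Tits.Roots
open Cfsg.Agent.LieRecognition.BNCox (cA cA_apply)
open Cfsg.Agent.LieRecognition.CoxClass (mA)
open Cfsg.Agent.Nodes.Reps Cfsg.Agent.Nodes.BNOf Cfsg.Agent.Nodes.LeviDec Cfsg.Agent.Nodes.OppDec Cfsg.Agent.Nodes.Bruhat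
open Cfsg.Agent.Tits.Core Cfsg.Agent.Tits.Exchange
open Cfsg.Agent.Nodes.StabComb Cfsg.Agent.H53.HC

variable {l : ℕ}

/-- the nodes `0, …, l - 1` of `B_{l+2}` -/
def kk (l : ℕ) : Fin l ↪ Fin (l + 2) := Fin.castAddEmb 2

theorem kk_val (i : Fin l) : (kk l i : ℕ) = i := rfl

theorem kk_M (i j : Fin l) : CoxeterMatrix.B (l + 2) (kk l i) (kk l j) = cA l i j := by
  by_cases hij : i = j
  · subst hij
    rw [CoxeterMatrix.diagonal, CoxeterMatrix.diagonal]
  · have hne : kk l i ≠ kk l j := fun e => hij ((kk l).injective e)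
    rw [H965.XZ.B_ne hne, cA_apply]
    unfold mA
    have h1 := i.2
    have h2 := j.2
    have h3 : (i : ℕ) ≠ j := fun e => hij (Fin.ext e)
    rw [kk_val, kk_val, if_neg (by omega), if_neg h3]
    by_cases h4 : (j : ℕ) + 1 = i ∨ (i : ℕ) + 1 = j
    · rw [if_pos h4, if_pos (by omega)]
    · rw [if_neg h4, if_neg (by omega)]

theorem kk_last (a : Fin l) : CoxeterMatrix.B (l + 2) (kk l a) (Fin.last (l + 1)) = 2 := by
  have h1 := a.2
  have hne : kk l a ≠ Fin.last (l + 1) := fun e => by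
    have := congrArg Fin.val e
    rw [kk_val, Fin.val_last] at this
    omega
  rw [H965.XZ.B_ne hne, kk_val, Fin.val_last, if_neg (by omega), if_neg (by omega)]

/-- the missing node -/
def jj (l : ℕ) : Fin (l + 2) := ⟨l, by omega⟩

theorem jj_val : (jj l : ℕ) = l := rfl

theorem kk_A {A : Fin (l + 2) → Fin (l + 2) → ℤ} (h : IsCartan (CoxeterMatrix.B (l + 2)) A) (a : Fin l) :
    A (kk l a) (jj l) = if a.val + 1 = l then -1 else 0 := by
  have h1 := a.2
  split_ifs with h2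
  · exact (H965.XZ.cart_adj h (i := kk l a) (j := jj l) h2 (by rw [jj_val]; omega)).1
  · exact (H965.XZ.cart_far h (i := kk l a) (j := jj l) (by rw [kk_val, jj_val]; omega)).1

theorem mem_J (i : Fin (l + 2)) : i ∈ Set.range (kk l) ∪ {Fin.last (l + 1)} ↔ i ≠ jj l := by
  constructor
  · rintro (⟨a, rfl⟩ | h) e
    · have h1 := congrArg Fin.val e
      rw [kk_val, jj_val] at h1
      exact absurd a.2 (by omega)
    · rw [Set.mem_singleton_iff.1 h] at e
      have h1 := congrArg Fin.val e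
      rw [Fin.val_last, jj_val] at h1
      omega
  · intro hi
    have h1 : (i : ℕ) ≠ l := fun e => hi (Fin.ext e)
    have h2 := i.2
    by_cases h3 : (i : ℕ) < l
    · exact Or.inl ⟨⟨i, h3⟩, Fin.ext rfl⟩
    · right
      rw [Set.mem_singleton_iff]
      apply Fin.ext
      rw [Fin.val_last]
      omega

theorem J_eq : (Set.range (kk l) ∪ {Fin.last (l + 1)} : Set (Fin (l + 2))) = {j | j ≠ jj l} :=
  Set.ext fun i => mem_J i

theorem orth_kk {A : Fin (l + 2) → Fin (l + 2) → ℤ} (h : IsCartan (CoxeterMatrix.B (l + 2)) A) :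
    Orth A (Set.range (kk l)) {Fin.last (l + 1)} := by
  rintro _ ⟨a, rfl⟩ b hb
  rw [Set.mem_singleton_iff.1 hb]
  have h1 := a.2
  have h2 : (kk l a : ℕ) + 1 < (Fin.last (l + 1) : Fin (l + 2)) := by rw [kk_val, Fin.val_last]; omega
  refine ⟨fun e => ?_, H965.XZ.cart_far h h2⟩
  rw [e] at h2
  omega

/-- **The elements permuting the simple roots.** -/
theorem flip {W : Type*} [Group W] [Finite W] {cs : CoxeterSystem (CoxeterMatrix.B (l + 2)) W}
    {A : Fin (l + 2) → Fin (l + 2) → ℤ} {h : IsCartan (CoxeterMatrix.B (l + 2)) A} (hl : 2 ≤ l) {w : W}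
    (hw : Perm cs h (Set.range (kk l) ∪ {Fin.last (l + 1)}) w)
    (hwJ : w ∉ WJ cs (Set.range (kk l) ∪ {Fin.last (l + 1)})) :
    (∀ i, rep cs h w (sr (kk l i)) = sr (kk l i.rev)) ∧
      rep cs h w (sr (Fin.last (l + 1))) = sr (Fin.last (l + 1)) :=
  H812.RIM.flip_last hl (kk l) kk_M kk_last mem_J (kk_A h) hw hwJ

end Cfsg.Agent.H568.RIM
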