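import Cfsg.Agent.H568.RIM.Comb
import Cfsg.Agent.H491.RIM.Chain
import Cfsg.Agent.H643.RIM.Levi

/-!
# The exceptional primes of the root group data of type `B_m`, `m ≥ 4` (S4816)

`nb_exc` : `S` a finite group with a root group datum of type `B_{l+2}`, `l ≥ 2`, `J` all the nodes but the last but one,
`p ∣ |S : P_J|`: the central extensions of `S` have irreducible characters of degree divisible by `p` over each linear
character of the kernel.
-/

set_option autoImplicit false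
set_option linter.unusedSectionVars false

open scoped ComplexConjugate

namespace Cfsg.Agent.H568.RIM

open Cfsg Cfsg.Agent.Characters CoxeterSystem Cfsg.Agent.ChevalleyStructure.CoxeterGeom Cfsg.Agent.Tits.Roots
  Cfsg.Agent.Tits.Core Cfsg.Agent.Tits.Exchange Cfsg.Agent.Nodes.Reps Cfsg.Agent.Nodes.BNOf Cfsg.Agent.Nodes.StabComb
  Cfsg.Agent.Nodes.Bruhat Cfsg.Agent.Nodes.OppDec Cfsg.Agent.Nodes.LeviDec Cfsg.Agent.Nodes.RGDLift Cfsg.Agent.H53.HC
open Cfsg.Agent.H643.RIM (GG_lift index_PJ charDegree_cast)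
open Cfsg.Agent.H665.RIM (NB)
open Cfsg.Agent.H491.RIM (CuspOver exists_irr_prod)

universe u

theorem nb_exc {l : ℕ} {W : Type*} {S : Type u} [Group W] [Group S] [Finite W] [Finite S] {r : ℕ} [Fact r.Prime]
    {cs : CoxeterSystem (CoxeterMatrix.B (l + 2)) W} {A : Fin (l + 2) → Fin (l + 2) → ℤ}
    {h : IsCartan (CoxeterMatrix.B (l + 2)) A} {T : Subgroup S} {n : Fin (l + 2) → S}
    {X : (Fin (l + 2) → ℤ) → Subgroup S} (hl : 2 ≤ l) (R : RGD cs h r T n X) (hG : GG cs h T X = ⊤) {p c : ℕ}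
    (hc : ¬ r ∣ c)
    (hX1 : ∀ (E : Type u) [Group E] [Finite E] (T' : Subgroup E) (n' : Fin (l + 2) → E)
      (X' : (Fin (l + 2) → ℤ) → Subgroup E) (_ : RGD cs h r T' n' X') (Z : Subgroup E), Z ≤ Subgroup.center E →
      Z ≤ T' → ∀ l₀ : Z →* ℂˣ, ∃ θ, CuspOver cs h X' {Fin.last (l + 1)} Z l₀ θ)
    (hd : p ∣ (PJ cs h T X (Set.range (kk l) ∪ {Fin.last (l + 1)})).index) : NB p c S := by
  classical
  intro E _ _ π hs hcen hcomm hcard l₀ hl₀
  have hk : (Nat.card π.ker).Coprime r := by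
    rw [hcard]
    exact (((Fact.out : r.Prime).coprime_iff_not_dvd).2 hc).symm
  have : Fintype E := Fintype.ofFinite E
  obtain ⟨n', hn'⟩ : ∃ n' : Fin (l + 2) → E, ∀ i, π (n' i) = n i := by
    choose n' hn' using fun i => hs (n i)
    exact ⟨n', hn'⟩
  have R' := rgd_lift hcen hk hs R hn'
  have hG' := GG_lift hcen hk hs R hG
  have hZT : π.ker ≤ T.comap π := fun z hz => show π z ∈ T by rw [MonoidHom.mem_ker.1 hz]; exact one_mem _
  obtain ⟨θ', hθ'⟩ := hX1 E _ _ _ R' π.ker hcen hZT l₀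
  obtain ⟨χ, hχ, ⟨a, ha, hχ1⟩, hχl⟩ := exists_irr_prod R' hG' hl (kk l) kk_M ⟨0, by omega⟩ rfl (orth_kk h) hcen hZT l₀
    hθ' (fun w hw hp => (flip hl hp hw).1)
  refine ⟨χ, hχ, fun z => hχl z z.2, ?_⟩
  rw [index_PJ hcen hk hs R] at hχ1
  have h1 : ((charDegree χ : ℕ) : ℂ) = (((PJ cs h T X (Set.range (kk l) ∪ {Fin.last (l + 1)})).index *
      (a * ((∏ i ∈ Finset.range l, (Nat.card (lft r π (X (sr (kk l ⟨0, by omega⟩)))) ^ (i + 1) - 1)) *
        charDegree θ')) : ℕ) : ℂ) := by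
    rw [charDegree_cast hχ, hχ1, Nat.cast_mul, Nat.cast_mul, Nat.cast_mul, charDegree_cast hθ'.irr]
  have h2 : charDegree χ = _ := Nat.cast_injective h1
  rw [h2]
  exact Dvd.dvd.mul_right hd _

end Cfsg.Agent.H568.RIM
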