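import Cfsg.Agent.H284.EPO.Pan

/-!
# The root group datum of type `B_m` of `PΩ_{2m+1}(q)`, with the orders of the root groups (S4816)

* `filtQ_PO_odd` : the datum, exact orders;
* `exists_odd`, `exists_minus` : the data without the filtration, in the form of `H521/RIM/Arith`.
-/

set_option autoImplicit false
set_option linter.unusedSectionVars false

namespace Cfsg.Agent.H568.RIM

open Cfsg CoxeterSystem Cfsg.Agent.ChevalleyStructure.CoxeterGeom Cfsg.Agent.Tits.Roots Cfsg.Agent.Tits.Core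
  Cfsg.Agent.Tits.RootComb Cfsg.Agent.Nodes.Comb Cfsg.Agent.Nodes.Reps Cfsg.Agent.Nodes.BNOf
open Cfsg.Agent.Nodes Cfsg.Agent.Nodes.RGDLib Cfsg.Agent.KFacts.RgdBorelTits Cfsg.Agent.KFacts.RgdFilt
open Cfsg.Agent.Nodes.Bruhat
open Cfsg.Agent.Nodes.WittRoot Cfsg.Agent.Nodes.WittAll Cfsg.Agent.TitsThree Cfsg.Agent.TitsThree.Siegel
open Cfsg.Agent.TitsThree.WittFrame Cfsg.Agent.Nodes.WittInst
open QuadraticMap
open Cfsg.Agent.LieClassical Cfsg.Agent.LieClassical.OrthCore Cfsg.Agent.LieClassical.OrthTrans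
open Cfsg.Agent.LieClassical.OrthSimple Cfsg.Agent.LieClassical.OrthFinite
open Cfsg.Agent.LieClassical.OrthForms
open Cfsg.Agent.TitsThree.WBridge Cfsg.Agent.TitsThree.KSideO Cfsg.Agent.TitsThree.StdData
open Cfsg.Agent.H284.Pan

variable {F : Type*} [Field F] {m : ℕ}

theorem filtQ_PO_odd [Finite F] (h2 : (2 : F) ≠ 0) (hm : 2 ≤ m) {p : ℕ} [Fact p.Prime] [CharP F p] :
    FiltQ p (CoxeterMatrix.B m) (fun _ => Nat.card F) (Cfsg.POmega F (Cfsg.quadFormOdd m F)) := by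
  rw [← coe_oddForm]
  have hG : Good (oddForm m F) := by
    apply good_of_finite (nondeg_oddForm m F h2)
    rw [Module.finrank_fintype_fun_eq_card, Fintype.card_sum, Fintype.card_sum, Fintype.card_fin,
      Fintype.card_unit]
    omega
  have hp : ((embOdd m F).ngt ⟨1, -1 ^ 2, rfl⟩).c ≠ 0 := by
    change (1 : F)⁻¹ * (-1 ^ 2) ≠ 0
    simp
  have h1 := filtQ_C (model (wodd m F) hG ⟨_, hp⟩) (AmbT.of_amb (amb_O_of_two _ h2) p) hp (by omega)
    (q := Nat.card F) (r := Nat.card F) rfl (by rw [H353.PanO.card_adm, H353.PanO.card_V0_odd])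
  have e : (fun i : Fin m => if (i : ℕ) + 1 < m then Nat.card F else Nat.card F) = fun _ => Nat.card F := by
    funext i
    split_ifs <;> rfl
  rwa [e] at h1

theorem GG_of_G1 {I W Y : Type*} [Fintype I] [DecidableEq I] [Group W] [Group Y] {M : CoxeterMatrix I}
    {cs : CoxeterSystem M W} {A : I → I → ℤ} {h : IsCartan M A} {T : Subgroup Y} {X : (I → ℤ) → Subgroup Y}
    (hG : G1 cs h X = ⊤) : GG cs h T X = ⊤ :=
  top_le_iff.1 (hG.symm.le.trans le_sup_right)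

/-- **`PΩ_{2m+1}(F)`** -/
theorem exists_odd [Finite F] (h2 : (2 : F) ≠ 0) (hm : 2 ≤ m) {r : ℕ} [Fact r.Prime] [CharP F r] :
    ∃ (A : Fin m → Fin m → ℤ) (h : IsCartan (CoxeterMatrix.B m) A)
      (T : Subgroup (Cfsg.POmega F (Cfsg.quadFormOdd m F))) (n : Fin m → Cfsg.POmega F (Cfsg.quadFormOdd m F))
      (X : (Fin m → ℤ) → Subgroup (Cfsg.POmega F (Cfsg.quadFormOdd m F))),
      RGD (CoxeterMatrix.B m).toCoxeterSystem h r T n X ∧ Finite (CoxeterMatrix.B m).Group ∧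
      GG (CoxeterMatrix.B m).toCoxeterSystem h T X = ⊤ ∧ ∀ i, Nat.card (X (sr i)) = Nat.card F := by
  obtain ⟨A, h, T, n, X, R, -, hW, hG, -, hc⟩ := filtQ_PO_odd (m := m) h2 hm (p := r)
  exact ⟨A, h, T, n, X, R, hW, GG_of_G1 hG, hc⟩

/-- **`PΩ⁻_{2m+2}(F)`** -/
theorem exists_minus [Finite F] (a b : F)
    (hab : ∀ z₁ z₂ : F, z₁ ^ 2 + a * z₁ * z₂ + b * z₂ ^ 2 = 0 → z₁ = 0 ∧ z₂ = 0)
    (hm : 2 ≤ m) {r : ℕ} [Fact r.Prime] [CharP F r] :
    ∃ (A : Fin m → Fin m → ℤ) (h : IsCartan (CoxeterMatrix.B m) A)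
      (T : Subgroup (Cfsg.POmega F (Cfsg.quadFormMinus m F a b)))
      (n : Fin m → Cfsg.POmega F (Cfsg.quadFormMinus m F a b))
      (X : (Fin m → ℤ) → Subgroup (Cfsg.POmega F (Cfsg.quadFormMinus m F a b))),
      RGD (CoxeterMatrix.B m).toCoxeterSystem h r T n X ∧ Finite (CoxeterMatrix.B m).Group ∧
      GG (CoxeterMatrix.B m).toCoxeterSystem h T X = ⊤ ∧
      (∀ i : Fin m, (i : ℕ) + 1 < m → Nat.card (X (sr i)) = Nat.card F) ∧
      ∀ i : Fin m, (i : ℕ) + 1 = m → Nat.card (X (sr i)) = Nat.card F ^ 2 := by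
  obtain ⟨A, h, T, n, X, R, -, hW, hG, -, hc⟩ := filtQ_PO_minus (m := m) a b hab hm (p := r)
  refine ⟨A, h, T, n, X, R, hW, GG_of_G1 hG, fun i hi => ?_, fun i hi => ?_⟩
  · exact (hc i).trans (if_pos hi)
  · exact (hc i).trans (if_neg (by omega))

end Cfsg.Agent.H568.RIM
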